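import Mathlib
import Cfsg.Agent.H181.OctMain

/-!
# S4933: the Sylow 3-subgroup of `G₂(q)`, `9 ∣ q² - 1` (helper384)

The inputs of the theorem of helper743 on characters of height one: an abelian subgroup `A` of index 3 of the Sylow 3-subgroup `P`,
`z ∈ A` of order 3, `Z(P) = ⟨z⟩`, `z ∈ P'`, `z` a cube in `A`, and a conjugate of `z` which commutes with `z` is in `⟨z⟩`.
-/

set_option autoImplicit false

namespace Cfsg.Agent.H384.HT.GTwo

open Cfsg.Lie QuadraticAlgebra Subgroup Cfsg.Agent.H181.OctHerm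
open scoped commutatorElement

variable {F : Type*} [Field F]

/-- noncentral elements of order 3 of `SS` have a fixed vector -/
theorem exists_fixed3 (h3 : (3 : F) ≠ 0) {n : SU F} (hn : n ∈ SS F) (hn3 : n * n * n = 1)
    (hnz : n ∉ zpowers (zz F)) : ∃ v : LL F × LL F × LL F, v ≠ 0 ∧ act (n : U3 F) ((0, v) : AA F) = (0, v) := by
  have hconj : ∀ d ∈ DD F, ∃ v : LL F × LL F × LL F, v ≠ 0 ∧
      act ((d * c0 F : SU F) : U3 F) ((0, v) : AA F) = (0, v) := by
    intro d hd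
    obtain ⟨x', y', w', -, -, -, h7, h8⟩ := mem_DD.1 hd
    obtain ⟨g, hg, hgt⟩ := exists_conj h3 x' y' w' h7
    set v : LL F × LL F × LL F := (act (g : Matrix (Fin 3) (Fin 3) (LL F)) ((0, 1, 0, 0) : AA F)).2 with hv
    have hgv : act (g : Matrix (Fin 3) (Fin 3) (LL F)) ((0, 1, 0, 0) : AA F) = (0, v) := rfl
    have ht : act ((tt F : U3 F) : Matrix (Fin 3) (Fin 3) (LL F)) ((0, 1, 0, 0) : AA F) = (0, 1, 0, 0) := by
      simp [act, tt, dg_coe]
    refine ⟨v, ?_, ?_⟩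
    · intro h0
      rw [h0] at hgv
      have h10 := congrArg (act ((g⁻¹ : U3 F) : Matrix (Fin 3) (Fin 3) (LL F))) hgv
      rw [← act_mul] at h10
      have h11 : ((g⁻¹ : U3 F) : Matrix (Fin 3) (Fin 3) (LL F)) * (g : Matrix (Fin 3) (Fin 3) (LL F)) = 1 :=
        congrArg Subtype.val (inv_mul_cancel g)
      rw [h11, act_one] at h10
      simp [act] at h10
    · have h12 : ((d * c0 F : SU F) : U3 F) = g * tt F * g⁻¹ := by
        rw [hgt, ← h8]; rfl
      rw [h12]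
      change act ((g : Matrix (Fin 3) (Fin 3) (LL F)) * ((tt F : U3 F) : Matrix (Fin 3) (Fin 3) (LL F)) * ((g⁻¹ : U3 F) : Matrix (Fin 3) (Fin 3) (LL F)))
        (0, v) = (0, v)
      rw [act_mul, act_mul, ← hgv, ← act_mul _ (g : Matrix (Fin 3) (Fin 3) (LL F))]
      have h11 : ((g⁻¹ : U3 F) : Matrix (Fin 3) (Fin 3) (LL F)) * (g : Matrix (Fin 3) (Fin 3) (LL F)) = 1 :=
        congrArg Subtype.val (inv_mul_cancel g)
      rw [h11, act_one, ht]
  obtain ⟨d, hd, rfl | rfl | rfl⟩ := mem_SS hn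
  · obtain ⟨x, y, w, hx, hy, hw, hxyw, h⟩ := mem_DD.1 hd
    have hcub : dg (x * x * x) (y * y * y) (w * w * w) = dg (1 : unitary (LL F)) 1 1 := by
      rw [dg_one, ← dg_mul, ← dg_mul, ← h]
      exact congrArg Subtype.val hn3
    obtain ⟨c1, c2, c3⟩ := dg_inj hcub
    have cx := cube_root h3 c1
    have cy := cube_root h3 c2
    have cw := cube_root h3 c3
    have hom : (omU : unitary (LL F)) ≠ 1 := fun h => om_ne_one (F := F) (congrArg Subtype.val h)
    have key : x = 1 ∨ y = 1 ∨ w = 1 := by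
      by_contra hcon
      push Not at hcon
      obtain ⟨k1, k2, k3⟩ := hcon
      have o3 : (omU : unitary (LL F)) * omU * omU = 1 := omU_cube
      rcases cx with cx | cx | cx
      · exact k1 cx
      · rcases cy with cy | cy | cy
        · exact k2 cy
        · rcases cw with cw | cw | cw
          · exact k3 cw
          · exact hnz (mem_zpowers_zz.2 ⟨omU, Or.inr (Or.inl rfl), by rw [h, cx, cy, cw]⟩)
          · apply hom
            rw [cx, cy, cw, ← mul_assoc, o3, one_mul] at hxyw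
            exact hxyw
        · rcases cw with cw | cw | cw
          · exact k3 cw
          · apply hom
            rw [cx, cy, cw, ← mul_assoc, o3, one_mul] at hxyw
            exact hxyw
          · apply k3
            rw [cx, cy, ← mul_assoc, o3, one_mul] at hxyw
            exact hxyw
      · rcases cy with cy | cy | cy
        · exact k2 cy
        · rw [cx, cy, o3, one_mul] at hxyw
          exact k3 hxyw
        · rcases cw with cw | cw | cw
          · exact k3 cw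
          · apply k1
            rw [cy, cw, mul_assoc, o3, mul_one] at hxyw
            exact hxyw
          · exact hnz (mem_zpowers_zz.2 ⟨omU * omU, Or.inr (Or.inr rfl), by rw [h, cx, cy, cw]⟩)
    rw [h]
    rcases key with k | k | k
    · refine ⟨(1, 0, 0), by simp, ?_⟩
      simp [act, dg_coe, k]
    · refine ⟨(0, 1, 0), by simp, ?_⟩
      simp [act, dg_coe, k]
    · refine ⟨(0, 0, 1), by simp, ?_⟩
      simp [act, dg_coe, k]
  · exact hconj d hd
  · -- the inverse is of the second kind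
    have hd' : c0 F * d⁻¹ * (c0 F)⁻¹ ∈ DD F := (mem_normalizer_iff.1 c0_normalizer _).1 (inv_mem hd)
    obtain ⟨v, hv, hfix⟩ := hconj _ hd'
    refine ⟨v, hv, ?_⟩
    have h4 : (c0 F * d⁻¹ * (c0 F)⁻¹ * c0 F) * (d * (c0 F * c0 F)) = 1 := by
      calc (c0 F * d⁻¹ * (c0 F)⁻¹ * c0 F) * (d * (c0 F * c0 F)) = c0 F * c0 F * c0 F := by group
        _ = 1 := c0_cube
    have h5 : (d * (c0 F * c0 F)) * (c0 F * d⁻¹ * (c0 F)⁻¹ * c0 F) = 1 := mul_eq_one_comm.1 h4
    have h6 : (((d * (c0 F * c0 F) : SU F) : U3 F) : Matrix (Fin 3) (Fin 3) (LL F)) *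
        (((c0 F * d⁻¹ * (c0 F)⁻¹ * c0 F : SU F) : U3 F) : Matrix (Fin 3) (Fin 3) (LL F)) = 1 :=
      congrArg (fun g : SU F => ((g : U3 F) : Matrix (Fin 3) (Fin 3) (LL F))) h5
    nth_rewrite 1 [← hfix]
    rw [← act_mul, h6, act_one]

/-- `ω` is a cube -/
theorem exists_root [Finite F] (h3 : (3 : F) ≠ 0) (h9 : 9 ∣ Nat.card F ^ 2 - 1) :
    ∃ η ∈ P3 F, η * η * η = (omU : unitary (LL F)) := by
  classical
  obtain ⟨ξ, hξ, hξ3⟩ := exists_xi h3 h9
  have hex : ∃ m : ℕ, ξ ^ 3 ^ m = 1 := by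
    obtain ⟨m, hm⟩ := hξ
    exact ⟨m, hm⟩
  obtain ⟨m, hm, hmin⟩ : ∃ m, ξ ^ 3 ^ m = 1 ∧ ∀ k < m, ξ ^ 3 ^ k ≠ 1 :=
    ⟨Nat.find hex, Nat.find_spec hex, fun k hk => Nat.find_min hex hk⟩
  have hm2 : 2 ≤ m := by
    by_contra hlt
    apply hξ3
    rcases (by omega : m = 0 ∨ m = 1) with h | h
    · rw [h, pow_zero, pow_one] at hm
      rw [hm, mul_one, mul_one]
    · rw [h, pow_one] at hm
      rw [← hm, pow_succ, pow_two]
  obtain ⟨j, rfl⟩ : ∃ j, m = j + 2 := ⟨m - 2, by omega⟩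
  have hη : ξ ^ 3 ^ j ∈ P3 F := pow_mem hξ _
  have h1 : ξ ^ 3 ^ j * ξ ^ 3 ^ j * ξ ^ 3 ^ j = ξ ^ 3 ^ (j + 1) := by
    rw [← pow_add, ← pow_add]
    congr 1
    rw [pow_succ]
    ring
  have h2 : ξ ^ 3 ^ (j + 1) ≠ 1 := hmin _ (by omega)
  have h4 : ξ ^ 3 ^ (j + 1) * ξ ^ 3 ^ (j + 1) * ξ ^ 3 ^ (j + 1) = 1 := by
    rw [← hm, ← pow_add, ← pow_add]
    congr 1
    rw [pow_succ, pow_succ]
    ring
  rcases cube_root h3 h4 with h | h | h
  · exact absurd h h2
  · exact ⟨_, hη, by rw [h1, h]⟩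
  · refine ⟨_, inv_mem hη, ?_⟩
    rw [← mul_inv, ← mul_inv, h1, h]
    exact inv_eq_of_mul_eq_one_left (by rw [← mul_assoc]; exact omU_cube)

section main

variable {G : Type*} [Group G] [Finite G] [Finite F]

/-- the centre of the Sylow 3-subgroup is strongly closed -/
theorem center_closed (h3 : (3 : F) ≠ 0) (e : G ≃* Cfsg.Lie.G2 F) (S : Sylow 3 G) {x : G}
    (hx : x ∈ (S : Subgroup G) ⊓ centralizer ((S : Subgroup G) : Set G)) {g : G} (hg : g * x * g⁻¹ ∈ (S : Subgroup G)) :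
    g * x * g⁻¹ ∈ (S : Subgroup G) ⊓ centralizer ((S : Subgroup G) : Set G) := by
  obtain ⟨κ, hκ, φ, hφ⟩ := exists_phi h3 e S
  have hfin := finite_LL (F := F)
  by_cases hx1 : x = 1
  · rw [hx1, mul_one, mul_inv_cancel]; exact one_mem _
  have hmap := map_inf_centralizer φ (S : Subgroup G)
  rw [hφ, map_center h3 κ] at hmap
  obtain ⟨z, hz, hzx⟩ : φ x ∈ (zpowers (zz F)).map (rho κ) := by
    rw [← hmap]; exact ⟨x, hx, rfl⟩
  obtain ⟨n, hn, hnx⟩ : φ (g * x * g⁻¹) ∈ (SS F).map (rho κ) := by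
    rw [← hφ]; exact ⟨_, hg, rfl⟩
  by_cases hnz : n ∈ zpowers (zz F)
  · have h4 : φ (g * x * g⁻¹) ∈ ((S : Subgroup G) ⊓ centralizer ((S : Subgroup G) : Set G)).map φ.toMonoidHom := by
      rw [hmap, ← hnx]
      exact ⟨n, hnz, rfl⟩
    obtain ⟨y, hy, hy'⟩ := h4
    rwa [← φ.injective hy']
  exfalso
  have hz3 : z ^ 3 = 1 := by
    have h1 := pow_card_eq_one' (x := (⟨z, hz⟩ : zpowers (zz F)))
    rw [card_zz] at h1
    exact congrArg Subtype.val h1
  have hx3 : x ^ 3 = 1 := by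
    apply φ.injective
    rw [map_pow, ← hzx, ← map_pow, hz3, map_one, map_one]
  have hn3 : n * n * n = 1 := by
    have h1 : n ^ 3 = 1 := by
      apply rho_injective κ
      rw [map_pow, hnx, ← map_pow, conj_pow, hx3, mul_one, mul_inv_cancel, map_one, map_one]
    rw [← h1, pow_succ, pow_two]
  -- fixed points
  let fx : GG κ → Set (AA F) := fun f => {v | (f : AA F ≃ₗ[F] AA F) v = v}
  have hconj : (fx (φ (g * x * g⁻¹))).ncard = (fx (φ x)).ncard := by
    symm
    refine Set.ncard_congr (fun v _ => (φ g : AA F ≃ₗ[F] AA F) v) ?_ ?_ ?_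
    · intro v hv
      change ((φ (g * x * g⁻¹) : GG κ) : AA F ≃ₗ[F] AA F) _ = _
      rw [map_mul, map_mul, map_inv]
      change (φ g : AA F ≃ₗ[F] AA F) ((φ x : AA F ≃ₗ[F] AA F) ((φ g : AA F ≃ₗ[F] AA F).symm
        ((φ g : AA F ≃ₗ[F] AA F) v))) = _
      rw [LinearEquiv.symm_apply_apply]
      exact congrArg _ hv
    · intro a b _ _ h
      exact (φ g : AA F ≃ₗ[F] AA F).injective h
    · intro v hv
      refine ⟨(φ g : AA F ≃ₗ[F] AA F).symm v, ?_, LinearEquiv.apply_symm_apply _ _⟩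
      have hv' : ((φ (g * x * g⁻¹) : GG κ) : AA F ≃ₗ[F] AA F) v = v := hv
      rw [map_mul, map_mul, map_inv] at hv'
      change (φ g : AA F ≃ₗ[F] AA F) ((φ x : AA F ≃ₗ[F] AA F) ((φ g : AA F ≃ₗ[F] AA F).symm v)) = v at hv'
      change (φ x : AA F ≃ₗ[F] AA F) ((φ g : AA F ≃ₗ[F] AA F).symm v) = (φ g : AA F ≃ₗ[F] AA F).symm v
      rw [LinearEquiv.eq_symm_apply]
      exact hv'
  -- fixed points of `x`
  have hfx : fx (φ x) ⊆ Set.range (fun a : LL F => ((a, 0, 0, 0) : AA F)) := by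
    intro v hv
    have hv' : (rho κ z : AA F ≃ₗ[F] AA F) v = v := by rw [hzx]; exact hv
    rw [rho_apply] at hv'
    obtain ⟨s, hs, hsz⟩ := mem_zpowers_zz.1 hz
    rw [hsz] at hv'
    have hs1 : s ≠ 1 := by
      rintro rfl
      apply hx1
      apply φ.injective
      rw [map_one, ← hzx]
      have : z = 1 := by
        apply Subtype.ext
        rw [hsz, dg_one]; rfl
      rw [this, map_one]
    -- `s - 1` is invertible
    obtain ⟨u, hu⟩ : ∃ u : LL F, u * ((s : LL F) - 1) = 1 := by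
      have hthree : (⟨3⁻¹, 0⟩ : LL F) * 3 = 1 := by
        have : (3 : LL F) = ⟨3, 0⟩ := by
          ext <;> rfl
        rw [this]
        ext <;> simp [h3]
      rcases hs with h | h | h
      · exact absurd h hs1
      · refine ⟨(⟨3⁻¹, 0⟩ : LL F) * (om * om - 1), ?_⟩
        rw [h]
        change (⟨3⁻¹, 0⟩ : LL F) * (om * om - 1) * (om - 1) = 1
        linear_combination (⟨3⁻¹, 0⟩ : LL F) * (om - 2) * (om_sq (F := F)) + hthree
      · refine ⟨(⟨3⁻¹, 0⟩ : LL F) * (om - 1), ?_⟩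
        rw [h]
        change (⟨3⁻¹, 0⟩ : LL F) * (om - 1) * (om * om - 1) = 1
        linear_combination (⟨3⁻¹, 0⟩ : LL F) * (om - 2) * (om_sq (F := F)) + hthree
    obtain ⟨a, v1, v2, v3⟩ := v
    simp [act, dg_coe] at hv'
    obtain ⟨e1, e2, e3⟩ := hv'
    have k1 : v1 = 0 := by linear_combination u * e1 - v1 * hu
    have k2 : v2 = 0 := by linear_combination u * e2 - v2 * hu
    have k3 : v3 = 0 := by linear_combination u * e3 - v3 * hu
    exact ⟨a, by rw [k1, k2, k3]⟩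
  obtain ⟨v, hv0, hv⟩ := exists_fixed3 h3 hn hn3 hnz
  have hfy : Set.range (fun a : LL F => ((a, 0, 0, 0) : AA F)) ⊂ fx (φ (g * x * g⁻¹)) := by
    rw [Set.ssubset_iff_exists]
    refine ⟨?_, (0, v), ?_, ?_⟩
    · rintro _ ⟨a, rfl⟩
      change ((φ (g * x * g⁻¹) : GG κ) : AA F ≃ₗ[F] AA F) _ = _
      rw [← hnx, rho_apply]
      simp [act]
    · change ((φ (g * x * g⁻¹) : GG κ) : AA F ≃ₗ[F] AA F) _ = _
      rw [← hnx, rho_apply]
      exact hv
    · rintro ⟨a, ha⟩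
      exact hv0 (congrArg Prod.snd ha).symm
  have h10 := Set.ncard_lt_ncard hfy (Set.toFinite _)
  have h11 := Set.ncard_le_ncard hfx (Set.toFinite _)
  omega

/-- conjugates of `z` that commute with `z` -/
theorem conj_comm (h3 : (3 : F) ≠ 0) (e : G ≃* Cfsg.Lie.G2 F) (S : Sylow 3 G) {x y : G}
    (hx : x ∈ (S : Subgroup G) ⊓ centralizer ((S : Subgroup G) : Set G))
    (hy : y ∈ (S : Subgroup G) ⊓ centralizer ((S : Subgroup G) : Set G)) {g : G}
    (hyx : Commute (g * x * g⁻¹) y) (hy1 : y ≠ 1) :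
    g * x * g⁻¹ ∈ (S : Subgroup G) ⊓ centralizer ((S : Subgroup G) : Set G) := by
  have : Fact (Nat.Prime 3) := ⟨Nat.prime_three⟩
  set Z : Subgroup G := (S : Subgroup G) ⊓ centralizer ((S : Subgroup G) : Set G) with hZ
  have hcZ : Nat.card Z = 3 := card_center h3 e S
  -- `y` generates `Z`
  have hZy : ∀ w ∈ Z, w ∈ zpowers y := by
    have h1 : zpowers y = Z := by
      apply Subgroup.eq_of_le_of_card_ge (Subgroup.zpowers_le.2 hy)
      rw [hcZ]
      have h2 : Nat.card (zpowers y) ∣ 3 := by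
        rw [← hcZ]
        exact Subgroup.card_dvd_of_le (Subgroup.zpowers_le.2 hy)
      rcases (Nat.dvd_prime Nat.prime_three).1 h2 with h | h
      · exact absurd (Subgroup.zpowers_eq_bot.1 (Subgroup.eq_bot_of_card_eq _ h)) hy1
      · exact h.ge
    intro w hw
    rw [h1]
    exact hw
  -- a Sylow subgroup containing `y` and the conjugate
  set d := g * x * g⁻¹ with hd
  have hyZ : IsPGroup 3 (zpowers y) := (S.isPGroup').to_le ((Subgroup.zpowers_le.2 hy).trans inf_le_left)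
  have hxZ : IsPGroup 3 (zpowers x) := (S.isPGroup').to_le ((Subgroup.zpowers_le.2 hx).trans inf_le_left)
  have hdZ : IsPGroup 3 (zpowers d) := by
    have h1 : zpowers d = (zpowers x).map (MulAut.conj g).toMonoidHom := by
      rw [MonoidHom.map_zpowers]
      rfl
    rw [h1]
    exact hxZ.map _
  have hsup : IsPGroup 3 (zpowers d ⊔ zpowers y : Subgroup G) := by
    refine hdZ.to_sup_of_normal_right' hyZ ?_
    rw [Subgroup.zpowers_le, mem_normalizer_iff]
    intro w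
    have h1 : ∀ u ∈ zpowers y, d * u * d⁻¹ = u := by
      intro u hu
      obtain ⟨k, rfl⟩ := hu
      have h2 : Commute d (y ^ k) := hyx.zpow_right k
      show d * y ^ k * d⁻¹ = y ^ k
      rw [h2.eq, mul_inv_cancel_right]
    constructor
    · intro hw
      rw [h1 w hw]
      exact hw
    · intro hw
      have h2 := h1 _ hw
      have h3 : d * w * d⁻¹ = w := by
        have h4 := congrArg (fun u => d⁻¹ * u * d) h2
        simp only [mul_assoc, inv_mul_cancel, mul_one, inv_mul_cancel_left] at h4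
        simpa [mul_assoc] using h4
      rw [← h3]
      exact hw
  obtain ⟨Q, hQ⟩ := hsup.exists_le_sylow
  obtain ⟨k, hk⟩ := MulAction.exists_smul_eq G Q S
  have hmem : ∀ w ∈ Q, k * w * k⁻¹ ∈ (S : Subgroup G) := by
    intro w hw
    rw [← hk, Sylow.coe_subgroup_smul]
    exact Subgroup.smul_mem_pointwise_smul w (MulAut.conj k) (Q : Subgroup G) hw
  have hdQ : k * d * k⁻¹ ∈ (S : Subgroup G) := hmem d (hQ ((le_sup_left : zpowers d ≤ _) (mem_zpowers d)))
  have hyQ : k * y * k⁻¹ ∈ (S : Subgroup G) := hmem y (hQ ((le_sup_right : zpowers y ≤ _) (mem_zpowers y)))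
  have h4 : k * y * k⁻¹ ∈ Z := center_closed h3 e S hy hyQ
  have h5 : k * d * k⁻¹ ∈ Z := by
    have h6 : k * d * k⁻¹ = (k * g) * x * (k * g)⁻¹ := by rw [hd]; group
    rw [h6] at hdQ ⊢
    exact center_closed h3 e S hx hdQ
  -- `k` normalizes `Z`
  have h7 : (zpowers y).map (MulAut.conj k).toMonoidHom = Z := by
    apply Subgroup.eq_of_le_of_card_ge
    · rw [Subgroup.map_le_iff_le_comap, Subgroup.zpowers_le]
      exact h4
    · rw [Subgroup.card_map_of_injective (MulAut.conj k).injective, hcZ]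
      have h1 : zpowers y = Z := le_antisymm (Subgroup.zpowers_le.2 hy) hZy
      rw [h1, hcZ]
  rw [← h7] at h5
  obtain ⟨w, hw, hwd⟩ := h5
  have h8 : w = d := by
    have h9 : k * w * k⁻¹ = k * d * k⁻¹ := hwd
    exact mul_left_cancel (mul_right_cancel h9)
  rw [← h8]
  exact (Subgroup.zpowers_le.2 hy) hw

/-- **The inputs.** -/
theorem inputs (h3 : (3 : F) ≠ 0) (h9 : 9 ∣ Nat.card F ^ 2 - 1) (e : G ≃* Cfsg.Lie.G2 F) (S : Sylow 3 G) :
    ∃ (A : Subgroup G) (z : G), A ≤ S ∧ (∀ a ∈ A, ∀ b ∈ A, a * b = b * a) ∧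
      Nat.card (S : Subgroup G) = 3 * Nat.card A ∧ 81 ≤ Nat.card A ∧ z ∈ A ∧ z ≠ 1 ∧ z ^ 3 = 1 ∧
      (∃ a ∈ A, a ^ 3 = z) ∧ z ∈ ⁅(S : Subgroup G), (S : Subgroup G)⁆ ∧
      (S : Subgroup G) ⊓ centralizer ((S : Subgroup G) : Set G) = zpowers z ∧
      ∀ g : G, Commute (g * z * g⁻¹) z → g * z * g⁻¹ = z ∨ g * z * g⁻¹ = z⁻¹ := by
  obtain ⟨κ, hκ, φ, hφ⟩ := exists_phi h3 e S
  obtain ⟨k, h1, h2, h4, h5, h6⟩ := cards' (F := F) h3
  -- the map
  have hback : ∀ s : SU F, s ∈ SS F → φ.symm (rho κ s) ∈ (S : Subgroup G) := by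
    intro s hs
    have h7 : rho κ s ∈ (S : Subgroup G).map φ.toMonoidHom := by
      rw [hφ]
      exact ⟨s, hs, rfl⟩
    obtain ⟨t, ht, hts⟩ := h7
    rw [← hts]
    show φ.symm (φ t) ∈ _
    rw [φ.symm_apply_apply]
    exact ht
  let f : SU F →* G := φ.symm.toMonoidHom.comp (rho κ)
  have hf : ∀ s, f s = φ.symm (rho κ s) := fun _ => rfl
  have hfi : Function.Injective f := φ.symm.injective.comp (rho_injective κ)
  have hSf : (SS F).map f = (S : Subgroup G) := by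
    ext y
    constructor
    · rintro ⟨s, hs, rfl⟩
      exact hback s hs
    · intro hy
      obtain ⟨s, hs, hsy⟩ : φ y ∈ (SS F).map (rho κ) := by
        rw [← hφ]
        exact ⟨y, hy, rfl⟩
      exact ⟨s, hs, by rw [hf, hsy, φ.symm_apply_apply]⟩
  set A : Subgroup G := (DD F).map f with hA
  have hcA : Nat.card A = 3 ^ k * 3 ^ k := by
    rw [hA, Subgroup.card_map_of_injective hfi, card_DD, h5]
  have hAS : A ≤ (S : Subgroup G) := by
    rw [← hSf]
    exact Subgroup.map_mono DD_le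
  have hAc : ∀ a ∈ A, ∀ b ∈ A, a * b = b * a := by
    rintro _ ⟨a, ha, rfl⟩ _ ⟨b, hb, rfl⟩
    rw [← map_mul, ← map_mul]
    congr 1
    obtain ⟨x, y, w, -, -, -, -, hb'⟩ := mem_DD.1 hb
    apply Subtype.ext
    rw [Subgroup.coe_mul, Subgroup.coe_mul, hb', ← mul_inv_eq_iff_eq_mul]
    exact conj_d a ha x y w
  have hcS : Nat.card (S : Subgroup G) = 3 * Nat.card A := by
    rw [card_sylow h3 e S, h6, hcA]
  have h81 : 81 ≤ Nat.card A := by
    rw [hcA]
    have hk : 2 ≤ k := by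
      by_contra h
      have : k = 1 := by omega
      subst this
      exact h4 h9
    have h7 : 3 ^ 2 ≤ 3 ^ k := Nat.pow_le_pow_right (by norm_num) hk
    calc 81 = 3 ^ 2 * 3 ^ 2 := by norm_num
      _ ≤ _ := Nat.mul_le_mul h7 h7
  -- the central element
  have hz3 : (zz F) ^ 3 = 1 := by
    have h1 := pow_card_eq_one' (x := (⟨zz F, mem_zpowers _⟩ : zpowers (zz F)))
    rw [card_zz] at h1
    exact congrArg Subtype.val h1
  have hzne : zz F ≠ 1 := by
    intro h
    have h1 := card_zz (F := F)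
    rw [h, Subgroup.zpowers_one_eq_bot, Subgroup.card_bot] at h1
    omega
  have hcen : (S : Subgroup G) ⊓ centralizer ((S : Subgroup G) : Set G) = zpowers (f (zz F)) := by
    rw [← hSf, ← MonoidHom.map_zpowers, ← center_SS h3]
    ext y
    constructor
    · rintro ⟨⟨s, hs, rfl⟩, hc⟩
      refine ⟨s, mem_inf.2 ⟨hs, ?_⟩, rfl⟩
      rw [mem_centralizer_iff]
      intro t ht
      apply hfi
      rw [map_mul, map_mul]
      exact mem_centralizer_iff.1 hc _ ⟨t, ht, rfl⟩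
    · rintro ⟨s, ⟨hs, hc⟩, rfl⟩
      refine mem_inf.2 ⟨⟨s, hs, rfl⟩, ?_⟩
      rw [mem_centralizer_iff]
      rintro _ ⟨t, ht, rfl⟩
      rw [← map_mul, mem_centralizer_iff.1 hc t ht, map_mul]
  have hzZ : f (zz F) ∈ (S : Subgroup G) ⊓ centralizer ((S : Subgroup G) : Set G) := by
    rw [hcen]
    exact mem_zpowers _
  have hfz1 : f (zz F) ≠ 1 := by
    intro h
    rw [← map_one f] at h
    exact hzne (hfi h)
  have hfz3 : f (zz F) ^ 3 = 1 := by rw [← map_pow, hz3, map_one]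
  refine ⟨A, f (zz F), hAS, hAc, hcS, h81, ⟨zz F, zz_mem_DD, rfl⟩, hfz1, hfz3, ?_, ?_, hcen, ?_⟩
  · -- a cube root
    obtain ⟨η, hη, hη3⟩ := exists_root h3 h9
    have hd : dg η η (η * η)⁻¹ ∈ SU F := dg_mem.2 (mul_inv_cancel _)
    refine ⟨f ⟨dg η η (η * η)⁻¹, hd⟩, ⟨_, mem_DD.2 ⟨η, η, (η * η)⁻¹, hη, hη, inv_mem (mul_mem hη hη), mul_inv_cancel _, rfl⟩,
      rfl⟩, ?_⟩
    rw [← map_pow]
    congr 1
    apply Subtype.ext
    show (dg η η (η * η)⁻¹) ^ 3 = dg omU omU omU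
    rw [pow_succ, pow_two, dg_mul, dg_mul, hη3]
    congr 1
    have h7 : (η * η)⁻¹ * (η * η)⁻¹ * (η * η)⁻¹ = ((η * η * η) * (η * η * η))⁻¹ := by
      simp only [mul_inv]
      simp only [mul_comm, mul_left_comm]
    rw [h7, hη3, inv_eq_iff_mul_eq_one, omU_cube]
  · -- a commutator
    have hd1 : (omU : unitary (LL F)) * (omU * omU) * 1 = 1 := by rw [mul_one, ← mul_assoc, omU_cube]
    obtain ⟨d, hd⟩ : ∃ d : SU F, d = ⟨dg omU (omU * omU) 1, dg_mem.2 hd1⟩ := ⟨_, rfl⟩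
    have hdD : d ∈ DD F := by
      rw [hd]
      exact mem_DD.2 ⟨omU, omU * omU, 1, omU_mem, mul_mem omU_mem omU_mem, one_mem _, hd1, rfl⟩
    have hcom : zz F = ⁅d, c0 F⁆ := by
      rw [commutatorElement_def]
      apply Subtype.ext
      rw [hd]
      show dg omU omU omU = dg omU (omU * omU) 1 * cyc * (dg omU (omU * omU) 1)⁻¹ * cyc⁻¹
      rw [dg_inv, mul_assoc, mul_assoc, ← mul_assoc cyc, cyc_mul, dg_mul]
      have h7 : (omU : unitary (LL F)) * omU * omU = 1 := omU_cube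
      congr 1
      · rw [inv_one, mul_one]
      · rw [mul_assoc, mul_inv_cancel, mul_one]
      · rw [one_mul]
        exact eq_inv_of_mul_eq_one_left (by rw [← mul_assoc]; exact h7)
    rw [hcom, map_commutatorElement]
    exact Subgroup.commutator_mem_commutator (by rw [← hSf]; exact ⟨d, DD_le hdD, rfl⟩)
      (by rw [← hSf]; exact ⟨c0 F, c0_mem, rfl⟩)
  · intro g hg
    have h8 := conj_comm h3 e S hzZ hzZ hg hfz1
    have h9 : ∀ w ∈ zpowers (f (zz F)), w ≠ 1 → w = f (zz F) ∨ w = (f (zz F))⁻¹ := by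
      intro w hw hw1
      obtain ⟨n, rfl⟩ := hw
      have h5 : (f (zz F)) ^ (3 : ℤ) = 1 := by exact_mod_cast hfz3
      have h4 : (f (zz F)) ^ n = (f (zz F)) ^ (n % 3) := by
        conv_lhs => rw [← Int.emod_add_mul_ediv n 3, zpow_add, zpow_mul, h5, one_zpow, mul_one]
      show (f (zz F)) ^ n = f (zz F) ∨ (f (zz F)) ^ n = (f (zz F))⁻¹
      have hw2 : (f (zz F)) ^ n ≠ 1 := hw1
      rw [h4] at hw2 ⊢
      rcases (by omega : n % 3 = 0 ∨ n % 3 = 1 ∨ n % 3 = 2) with h6 | h6 | h6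
      · exact absurd (by rw [h6, zpow_zero]) hw2
      · left
        rw [h6, zpow_one]
      · right
        rw [h6, eq_inv_iff_mul_eq_one, ← zpow_add_one]
        exact h5
    rw [hcen] at h8
    refine h9 _ h8 ?_
    intro h10
    apply hfz1
    have h11 := congrArg (fun u => g⁻¹ * u * g) h10
    simpa [mul_assoc] using h11

end main

end Cfsg.Agent.H384.HT.GTwo
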