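import Cfsg.Agent.Cit.HexInv
import Cfsg.Agent.H681.IP.Row

/-!
# S4933, the rows `p = 2` of `G₂(q)` and `³D₄(q)`, `q` odd (helper384)

In a group `HexGrp` of odd characteristic the subgroup `⟨pb i, pb j, p4 i, p4 j, g⟩` (`i`, `j` generators of a
quaternion subgroup of `SL₂`, `g` acting on both factors as `1 + i`) is a `2`-group of order `64`, of class at least
three, and contains two commuting quaternion groups.
-/

set_option autoImplicit false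

namespace Cfsg.Agent.H384.HT

open Cfsg.Agent.SplitTwo Cfsg.Agent.Lib.SL2Mat Cfsg.Agent.Cit.HexBase Cfsg.Agent.Cit.HexBase.HexGrp
open scoped commutatorElement

section sl

variable {K : Type*} [Field K]

/-- `i` -/
def qi (K : Type*) [Field K] : SL2 K := wm 1 one_ne_zero

/-- `j` -/
def qj (a b : K) (h : a ^ 2 + b ^ 2 = -1) : SL2 K := mk a b b (-a) (by linear_combination -h)

/-- `(1 + i) diag(1/2, 1)` -/
def qs (h2 : (2 : K) ≠ 0) : SL2 K := mk (1 / 2) 1 (-(1 / 2)) 1 (by field_simp; norm_num)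

theorem qi_sq : qi K * qi K = dg (-1) (neg_ne_zero.2 one_ne_zero) := by
  unfold qi
  refine ext_ent ?_ ?_ ?_ ?_ <;> simp [ent_mul]

theorem qj_sq {a b : K} (h : a ^ 2 + b ^ 2 = -1) : qj a b h * qj a b h = dg (-1) (neg_ne_zero.2 one_ne_zero) := by
  unfold qj
  refine ext_ent ?_ ?_ ?_ ?_ <;> simp [ent_mul]
  · linear_combination h
  · ring
  · ring
  · linear_combination h

theorem dgm_sq : dg (-1 : K) (neg_ne_zero.2 one_ne_zero) * dg (-1) (neg_ne_zero.2 one_ne_zero) = 1 := by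
  refine ext_ent ?_ ?_ ?_ ?_ <;> simp [ent_mul]

theorem dgm_ne (h2 : (2 : K) ≠ 0) : dg (-1 : K) (neg_ne_zero.2 one_ne_zero) ≠ 1 := by
  intro h
  have h1 := congrArg (fun x => ent x 0 0) h
  simp at h1
  exact h2 (by linear_combination -h1)

theorem qj_conj {a b : K} (h : a ^ 2 + b ^ 2 = -1) :
    qj a b h * qi K * (qj a b h)⁻¹ = (qi K)⁻¹ := by
  rw [mul_inv_eq_iff_eq_mul, eq_inv_mul_iff_mul_eq]
  unfold qj qi
  refine ext_ent ?_ ?_ ?_ ?_ <;> simp [ent_mul]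

theorem qi_four : qi K ^ 4 = 1 := by
  have h1 : qi K ^ 4 = (qi K * qi K) * (qi K * qi K) := by
    rw [pow_succ, pow_succ, pow_succ, pow_one]
    simp only [mul_assoc]
  rw [h1, qi_sq, dgm_sq]

theorem qj_four {a b : K} (h : a ^ 2 + b ^ 2 = -1) : qj a b h ^ 4 = 1 := by
  have h1 : qj a b h ^ 4 = (qj a b h * qj a b h) * (qj a b h * qj a b h) := by
    rw [pow_succ, pow_succ, pow_succ, pow_one]
    simp only [mul_assoc]
  rw [h1, qj_sq, dgm_sq]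

theorem qij_ne (h2 : (2 : K) ≠ 0) {a b : K} (h : a ^ 2 + b ^ 2 = -1) :
    qi K * qj a b h ≠ qj a b h * qi K := by
  intro h3
  have h4 := qj_conj h
  rw [← h3, mul_inv_cancel_right, eq_inv_iff_mul_eq_one, qi_sq] at h4
  exact dgm_ne h2 h4

/-- the action of `1 + i` -/
noncomputable def τ (h2 : (2 : K) ≠ 0) (x : SL2 K) : SL2 K :=
  qs h2 * conjGL (dgl 2 h2) x * (qs h2)⁻¹

theorem τ_qi (h2 : (2 : K) ≠ 0) : τ h2 (qi K) = qi K := by
  unfold τ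
  rw [mul_inv_eq_iff_eq_mul, conjGL_dgl_ent]
  unfold qi qs
  refine ext_ent ?_ ?_ ?_ ?_ <;> simp [ent_mul] <;> field_simp

theorem τ_qj (h2 : (2 : K) ≠ 0) {a b : K} (h : a ^ 2 + b ^ 2 = -1) :
    τ h2 (qj a b h) = qi K * qj a b h := by
  unfold τ
  rw [mul_inv_eq_iff_eq_mul, conjGL_dgl_ent]
  unfold qi qj qs
  refine ext_ent ?_ ?_ ?_ ?_ <;> simp [ent_mul] <;> field_simp <;> ring

theorem τ_ent (h2 : (2 : K) ≠ 0) (x : SL2 K) :
    ent (τ h2 x) 0 0 = (ent x 0 0 + ent x 1 0 + ent x 0 1 + ent x 1 1) / 2 ∧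
    ent (τ h2 x) 0 1 = (-ent x 0 0 - ent x 1 0 + ent x 0 1 + ent x 1 1) / 2 ∧
    ent (τ h2 x) 1 0 = (-ent x 0 0 + ent x 1 0 - ent x 0 1 + ent x 1 1) / 2 ∧
    ent (τ h2 x) 1 1 = (ent x 0 0 - ent x 1 0 - ent x 0 1 + ent x 1 1) / 2 := by
  unfold τ
  rw [conjGL_dgl_ent, ent_inv (qs h2)]
  unfold qs
  refine ⟨?_, ?_, ?_, ?_⟩ <;> simp [ent_mul] <;> field_simp <;> ring

theorem τ_τ (h2 : (2 : K) ≠ 0) (x : SL2 K) : τ h2 (τ h2 x) = qi K * x * (qi K)⁻¹ := by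
  obtain ⟨a1, a2, a3, a4⟩ := τ_ent h2 x
  obtain ⟨b1, b2, b3, b4⟩ := τ_ent h2 (τ h2 x)
  rw [eq_mul_inv_iff_mul_eq]
  unfold qi
  refine ext_ent ?_ ?_ ?_ ?_ <;> simp [ent_mul, b1, b2, b3, b4, a1, a2, a3, a4] <;> field_simp <;> ring

end sl

section grp

variable {G : Type*} [Group G] {p : ℕ}

theorem isPGroup_zpowers {x : G} {k : ℕ} (h : x ^ p ^ k = 1) : IsPGroup p (Subgroup.zpowers x) := by
  rintro ⟨y, hy⟩
  obtain ⟨m, rfl⟩ := Subgroup.mem_zpowers_iff.1 hy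
  refine ⟨k, Subtype.ext ?_⟩
  change (x ^ m) ^ p ^ k = 1
  rw [← zpow_natCast, ← zpow_mul, mul_comm, zpow_mul, zpow_natCast, h, one_zpow]

theorem conj_pow_mem {N : Subgroup G} {g : G} (hc : ∀ n ∈ N, g * n * g⁻¹ ∈ N) (m : ℕ) {n : G} (hn : n ∈ N) :
    g ^ m * n * (g ^ m)⁻¹ ∈ N := by
  induction m with
  | zero => simpa using hn
  | succ m ih =>
    have h := hc _ ih
    have e : g * (g ^ m * n * (g ^ m)⁻¹) * g⁻¹ = g ^ (m + 1) * n * (g ^ (m + 1))⁻¹ := by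
      rw [pow_succ', mul_inv_rev]
      simp only [mul_assoc]
    rwa [e] at h

theorem isPGroup_sup (hp : p.Prime) {N : Subgroup G} (hN : IsPGroup p N) {g : G} {k : ℕ} (hg : g ^ p ^ k = 1)
    (hc : N ≤ N.comap (MulAut.conj g).toMonoidHom) : IsPGroup p (N ⊔ Subgroup.zpowers g : Subgroup G) := by
  refine IsPGroup.to_sup_of_normal_left' hN (isPGroup_zpowers hg) ?_
  rw [Subgroup.zpowers_le, Subgroup.mem_normalizer_iff]
  have h1 : ∀ n ∈ N, g * n * g⁻¹ ∈ N := fun n hn => hc hn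
  intro n
  refine ⟨h1 n, fun hn => ?_⟩
  have h2 := conj_pow_mem h1 (p ^ k - 1) hn
  have h3 : g ^ (p ^ k - 1) = g⁻¹ := by
    rw [eq_inv_iff_mul_eq_one, ← pow_succ, Nat.sub_add_cancel (Nat.pos_of_ne_zero (pow_ne_zero _ hp.ne_zero)), hg]
  rw [h3] at h2
  have e : g⁻¹ * (g * n * g⁻¹) * g⁻¹⁻¹ = n := by group
  rwa [e] at h2

end grp

section hex

universe u

variable {E : Type*} [Field E] {σ : E ≃+* E} {L : Type u} [Group L] (c : HexGrp σ L)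

theorem exists_outer [Finite E] (h2 : (2 : E) ≠ 0) : ∃ g : L,
    (∀ x, g * c.pb x * g⁻¹ = c.pb (τ h2 x)) ∧ (∀ x, g * c.p4 x * g⁻¹ = c.p4 (τ (two_ne h2) x)) := by
  have h0 : (1 / 2 : E) ≠ 0 := one_div_ne_zero h2
  obtain ⟨t, ht⟩ := c.exists_act' h2 (c1 := 2) (c6 := 1 / 2) h2 h0 (by
    rw [map_div₀, map_one, map_ofNat])
  have hn : nrm σ (2 : E) = 8 := by
    rw [nrm_of_fix (map_ofNat σ 2)]
    norm_num
  have e2 : (⟨(1 / 2 : E) ^ 2 * nrm σ 2, ht.fix4⟩ : ↥(fx σ)) = 2 := by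
    apply Subtype.ext
    change (1 / 2 : E) ^ 2 * nrm σ 2 = 2
    rw [hn]
    field_simp
    norm_num
  refine ⟨c.pb (qs h2) * c.p4 (qs (two_ne h2)) * t, fun x => ?_, fun x => ?_⟩
  · have h3 := ht.pb x
    have h4 := c.comm_pb_p4 (conjGL (dgl 2 ht.ne1) x) (qs (two_ne h2))
    calc c.pb (qs h2) * c.p4 (qs (two_ne h2)) * t * c.pb x * (c.pb (qs h2) * c.p4 (qs (two_ne h2)) * t)⁻¹
        = c.pb (qs h2) * (c.p4 (qs (two_ne h2)) * (t * c.pb x * t⁻¹) * (c.p4 (qs (two_ne h2)))⁻¹) *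
          (c.pb (qs h2))⁻¹ := by group
      _ = c.pb (qs h2) * c.pb (conjGL (dgl 2 ht.ne1) x) * (c.pb (qs h2))⁻¹ := by
        rw [h3, ← h4]
        group
      _ = _ := by rw [← map_inv, ← map_mul, ← map_mul]; rfl
  · have h3 := ht.p4 h2 x
    have h5 : conjGL (dgl (⟨(1 / 2 : E) ^ 2 * nrm σ 2, ht.fix4⟩ : ↥(fx σ)) (sub_ne _ ht.ne4)) x =
        conjGL (dgl (2 : ↥(fx σ)) (two_ne h2)) x := by
      congr 2
      exact Units.ext (by simp only [dgl, e2])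
    rw [h5] at h3
    have h4 := c.comm_pb_p4 (qs h2) (qs (two_ne h2) * conjGL (dgl (2 : ↥(fx σ)) (two_ne h2)) x * (qs (two_ne h2))⁻¹)
    calc c.pb (qs h2) * c.p4 (qs (two_ne h2)) * t * c.p4 x * (c.pb (qs h2) * c.p4 (qs (two_ne h2)) * t)⁻¹
        = c.pb (qs h2) * (c.p4 (qs (two_ne h2)) * (t * c.p4 x * t⁻¹) * (c.p4 (qs (two_ne h2)))⁻¹) *
          (c.pb (qs h2))⁻¹ := by group
      _ = c.pb (qs h2) * c.p4 (qs (two_ne h2) * conjGL (dgl (2 : ↥(fx σ)) (two_ne h2)) x * (qs (two_ne h2))⁻¹) *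
          (c.pb (qs h2))⁻¹ := by
        rw [h3, ← map_inv, ← map_mul, ← map_mul]
      _ = c.p4 (qs (two_ne h2) * conjGL (dgl (2 : ↥(fx σ)) (two_ne h2)) x * (qs (two_ne h2))⁻¹) := by
        rw [h4, mul_inv_cancel_right]

include c in
theorem row_hex [Finite E] (hIP : Cfsg.Agent.H681.IP.IPTwo) (h2 : (2 : E) ≠ 0) :
    Cfsg.Agent.H316.HT.Row 2 L := by
  obtain ⟨g, hg1, hg4⟩ := exists_outer c h2
  have : Finite ↥(fx σ) := inferInstance
  obtain ⟨a1, b1, h1⟩ := exists_quad h2 (s := (1 : E)) one_ne_zero (-1)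
  obtain ⟨a4, b4, h4⟩ := exists_quad (two_ne h2) (s := (1 : ↥(fx σ))) one_ne_zero (-1)
  rw [one_mul] at h1 h4
  obtain ⟨I, hI⟩ : ∃ I, I = c.pb (qi E) := ⟨_, rfl⟩
  obtain ⟨J, hJ⟩ : ∃ J, J = c.pb (qj a1 b1 h1) := ⟨_, rfl⟩
  obtain ⟨I', hI'⟩ : ∃ I', I' = c.p4 (qi ↥(fx σ)) := ⟨_, rfl⟩
  obtain ⟨J', hJ'⟩ : ∃ J', J' = c.p4 (qj a4 b4 h4) := ⟨_, rfl⟩
  have I4 : I ^ 4 = 1 := by rw [hI, ← map_pow, qi_four, map_one]
  have J4 : J ^ 4 = 1 := by rw [hJ, ← map_pow, qj_four, map_one]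
  have I4' : I' ^ 4 = 1 := by rw [hI', ← map_pow, qi_four, map_one]
  have J4' : J' ^ 4 = 1 := by rw [hJ', ← map_pow, qj_four, map_one]
  have cII : Commute I I' := by rw [hI, hI']; exact c.comm_pb_p4 _ _
  have cIJ : Commute I J' := by rw [hI, hJ']; exact c.comm_pb_p4 _ _
  have cJI : Commute J I' := by rw [hJ, hI']; exact c.comm_pb_p4 _ _
  have cJJ : Commute J J' := by rw [hJ, hJ']; exact c.comm_pb_p4 _ _
  have n1 : I * J ≠ J * I := by
    rw [hI, hJ, ← map_mul, ← map_mul]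
    exact fun h => qij_ne h2 h1 (c.pb_inj h2 h)
  have n4 : I' * J' ≠ J' * I' := by
    rw [hI', hJ', ← map_mul, ← map_mul]
    exact fun h => qij_ne (two_ne h2) h4 (c.p4_inj h)
  have k1 : J * I * J⁻¹ = I⁻¹ := by rw [hI, hJ, ← map_inv, ← map_mul, ← map_mul, qj_conj, map_inv]
  have k4 : J' * I' * J'⁻¹ = I'⁻¹ := by rw [hI', hJ', ← map_inv, ← map_mul, ← map_mul, qj_conj, map_inv]
  have gI : g * I * g⁻¹ = I := by rw [hI, hg1, τ_qi]
  have gJ : g * J * g⁻¹ = I * J := by rw [hI, hJ, hg1, τ_qj, map_mul]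
  have gI' : g * I' * g⁻¹ = I' := by rw [hI', hg4, τ_qi]
  have gJ' : g * J' * g⁻¹ = I' * J' := by rw [hI', hJ', hg4, τ_qj, map_mul]
  -- the square of `g`
  have hz : c.z = I * I := by rw [hI, ← map_mul, qi_sq]; rfl
  obtain ⟨w, hw⟩ : ∃ w, w = (I * I')⁻¹ * (g * g) := ⟨_, rfl⟩
  have hw2 : w = 1 ∨ w = c.z := by
    refine c.centralizer_K1K4 h2 (fun x => ?_) fun y => ?_
    · have e1 : g * g * c.pb x * (g * g)⁻¹ = I * c.pb x * I⁻¹ := by
        calc g * g * c.pb x * (g * g)⁻¹ = g * (g * c.pb x * g⁻¹) * g⁻¹ := by group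
          _ = _ := by rw [hg1, hg1, τ_τ, map_mul, map_mul, map_inv, hI]
      have e2 : I'⁻¹ * c.pb x = c.pb x * I'⁻¹ := by
        rw [hI', ← map_inv]
        exact (c.comm_pb_p4 _ _).symm
      calc w * c.pb x = (I * I')⁻¹ * (g * g * c.pb x * (g * g)⁻¹) * (g * g) := by rw [hw]; group
        _ = I'⁻¹ * c.pb x * I⁻¹ * (g * g) := by rw [e1]; group
        _ = c.pb x * (I'⁻¹ * I⁻¹) * (g * g) := by rw [e2]; group
        _ = c.pb x * w := by rw [hw]; group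
    · have e1 : g * g * c.p4 y * (g * g)⁻¹ = I' * c.p4 y * I'⁻¹ := by
        calc g * g * c.p4 y * (g * g)⁻¹ = g * (g * c.p4 y * g⁻¹) * g⁻¹ := by group
          _ = _ := by rw [hg4, hg4, τ_τ, map_mul, map_mul, map_inv, hI']
      have e2 : I⁻¹ * c.p4 y = c.p4 y * I⁻¹ := by
        rw [hI, ← map_inv]
        exact c.comm_pb_p4 _ _
      have e3 : (I * I')⁻¹ = I⁻¹ * I'⁻¹ := by rw [cII.eq, mul_inv_rev]
      calc w * c.p4 y = (I * I')⁻¹ * (g * g * c.p4 y * (g * g)⁻¹) * (g * g) := by rw [hw]; group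
        _ = I⁻¹ * c.p4 y * I'⁻¹ * (g * g) := by rw [e1, e3]; group
        _ = c.p4 y * (I⁻¹ * I'⁻¹) * (g * g) := by rw [e2]; group
        _ = c.p4 y * w := by rw [hw, e3]; group
  have zz := c.z_sq
  have wc : ∀ v : L, c.z * v = v * c.z → w * v = v * w := by
    intro v hv
    rcases hw2 with h | h
    · rw [h, one_mul, mul_one]
    · rw [h, hv]
  have g2 : g * g = I * I' * w := by rw [hw]; group
  have g8 : g ^ 2 ^ 3 = 1 := by
    have cw1 : Commute (I * I') w := by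
      have e : c.z * (I * I') = I * I' * c.z := by
        rw [hI, hI', ← mul_assoc, c.z_pb, mul_assoc, c.z_p4, mul_assoc]
      exact (wc _ e).symm
    have w4 : w ^ 4 = 1 := by
      rcases hw2 with h | h
      · rw [h, one_pow]
      · have e : c.z ^ 4 = (c.z * c.z) * (c.z * c.z) := by
          rw [pow_succ, pow_succ, pow_succ, pow_one]
          simp only [mul_assoc]
        rw [h, e, zz, one_mul]
    have e : g ^ 2 ^ 3 = (g * g) ^ 4 := by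
      rw [← pow_two, ← pow_mul]
      norm_num
    rw [e, g2, cw1.mul_pow, cII.mul_pow, I4, I4', w4, one_mul, one_mul]
  -- the `2`-group
  have hp := Nat.prime_two
  have p1 : IsPGroup 2 (Subgroup.zpowers I) := isPGroup_zpowers (k := 2) I4
  have mc : ∀ (N : Subgroup L) (a b : L), a * b * a⁻¹ ∈ N → b ∈ N.comap (MulAut.conj a).toMonoidHom :=
    fun N a b h => h
  have cm : ∀ {a b : L}, Commute b a → a * b * a⁻¹ = b := fun {a b} h => by
    rw [← h.eq, mul_inv_cancel_right]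
  have p2 := isPGroup_sup hp p1 (g := J) (k := 2) J4 (Subgroup.zpowers_le.2 (mc _ _ _ (by
    rw [k1]
    exact inv_mem (Subgroup.mem_zpowers I))))
  obtain ⟨N2, hN2⟩ : ∃ N2, N2 = Subgroup.zpowers I ⊔ Subgroup.zpowers J := ⟨_, rfl⟩
  rw [← hN2] at p2
  have mI2 : I ∈ N2 := by rw [hN2]; exact Subgroup.mem_sup_left (Subgroup.mem_zpowers I)
  have mJ2 : J ∈ N2 := by rw [hN2]; exact Subgroup.mem_sup_right (Subgroup.mem_zpowers J)
  have le2 : ∀ {H : Subgroup L}, I ∈ H → J ∈ H → N2 ≤ H := fun hi hj => by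
    rw [hN2]
    exact sup_le (Subgroup.zpowers_le.2 hi) (Subgroup.zpowers_le.2 hj)
  have p3 := isPGroup_sup hp p2 (g := I') (k := 2) I4' (le2 (mc _ _ _ (by rw [cm cII]; exact mI2))
    (mc _ _ _ (by rw [cm cJI]; exact mJ2)))
  obtain ⟨N3, hN3⟩ : ∃ N3, N3 = N2 ⊔ Subgroup.zpowers I' := ⟨_, rfl⟩
  rw [← hN3] at p3
  have l23 : N2 ≤ N3 := by rw [hN3]; exact le_sup_left
  have mI3 : I' ∈ N3 := by rw [hN3]; exact Subgroup.mem_sup_right (Subgroup.mem_zpowers I')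
  have le3 : ∀ {H : Subgroup L}, I ∈ H → J ∈ H → I' ∈ H → N3 ≤ H := fun hi hj hi' => by
    rw [hN3]
    exact sup_le (le2 hi hj) (Subgroup.zpowers_le.2 hi')
  have p4 := isPGroup_sup hp p3 (g := J') (k := 2) J4' (le3 (mc _ _ _ (by rw [cm cIJ]; exact l23 mI2))
    (mc _ _ _ (by rw [cm cJJ]; exact l23 mJ2)) (mc _ _ _ (by rw [k4]; exact inv_mem mI3)))
  obtain ⟨N4, hN4⟩ : ∃ N4, N4 = N3 ⊔ Subgroup.zpowers J' := ⟨_, rfl⟩
  rw [← hN4] at p4
  have l34 : N3 ≤ N4 := by rw [hN4]; exact le_sup_left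
  have mJ4 : J' ∈ N4 := by rw [hN4]; exact Subgroup.mem_sup_right (Subgroup.mem_zpowers J')
  have le4 : ∀ {H : Subgroup L}, I ∈ H → J ∈ H → I' ∈ H → J' ∈ H → N4 ≤ H := fun hi hj hi' hj' => by
    rw [hN4]
    exact sup_le (le3 hi hj hi') (Subgroup.zpowers_le.2 hj')
  have mI := l34 (l23 mI2)
  have mJ := l34 (l23 mJ2)
  have mI' := l34 mI3
  have p5 := isPGroup_sup hp p4 (g := g) (k := 3) g8 (le4 (mc _ _ _ (by rw [gI]; exact mI))
    (mc _ _ _ (by rw [gJ]; exact mul_mem mI mJ)) (mc _ _ _ (by rw [gI']; exact mI'))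
    (mc _ _ _ (by rw [gJ']; exact mul_mem mI' mJ4)))
  have mg : g ∈ N4 ⊔ Subgroup.zpowers g := Subgroup.mem_sup_right (Subgroup.mem_zpowers g)
  have mJ5 : J ∈ N4 ⊔ Subgroup.zpowers g := Subgroup.mem_sup_left mJ
  refine Cfsg.Agent.H681.IP.row_two hIP (N4 ⊔ Subgroup.zpowers g) p5 (x := g) (y := J) (z := J) mg mJ5 mJ5 ?_
    N4 p4 mI mJ mI' mJ4 n1 n4 cII cIJ cJI cJJ
  have e1 : ⁅g, J⁆ = I := by rw [commutatorElement_def, gJ, mul_inv_cancel_right]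
  rw [e1]
  intro h
  exact n1 (commutatorElement_eq_one_iff_commute.1 h).eq

end hex

end Cfsg.Agent.H384.HT
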