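import Cfsg.Agent.H384.HT.HexRow
import Cfsg.Agent.H681.IP.Plug
import Cfsg.Agent.Cit.HexG2
import Cfsg.Agent.Cit.HexD4

/-!
# S4933, boxes 2.g2 and 2.d4t (helper384): the fields `g2` and `d4t` of `TwoRows`
-/

set_option autoImplicit false

namespace Cfsg.Agent.H384.HT

open Cfsg

theorem two_ne_zero_of_odd {F : Type*} [Field F] [Fintype F] (h : Odd (Fintype.card F)) : (2 : F) ≠ 0 := by
  intro h2
  obtain ⟨k, hk⟩ := h
  have h1 : ((Fintype.card F : ℕ) : F) = 0 := FiniteField.cast_card_eq_zero F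
  rw [hk] at h1
  push_cast at h1
  rw [h2, zero_mul, zero_add] at h1
  exact one_ne_zero h1

/-- box 2.g2 -/
theorem row_g2 (F : Type) [Field F] [Fintype F] (h : Odd (Fintype.card F)) :
    Cfsg.Agent.H316.HT.Row 2 (Lie.chevG2.group F) :=
  row_hex (Cfsg.Agent.Cit.HexG2.g2 F (two_ne_zero_of_odd h)) Cfsg.Agent.H681.IP.ipTwo (two_ne_zero_of_odd h)

/-- box 2.d4t -/
theorem row_d4t (F : Type) [Field F] [Fintype F] (q : ℕ) (hF : Fintype.card F = q ^ 3) (h : Odd q) :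
    Cfsg.Agent.H316.HT.Row 2 (Lie.twistedD4 F q) := by
  obtain ⟨σ, -, ⟨c⟩⟩ := Cfsg.Agent.Cit.HexD4.exists_d4 hF
  exact row_hex c Cfsg.Agent.H681.IP.ipTwo (two_ne_zero_of_odd (by rw [hF]; exact h.pow))

end Cfsg.Agent.H384.HT
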